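import Cfsg.Agent.Lib.Helper95.S3814.Defs
import Cfsg.Agent.Lib.Helper54.FrobNorm

/-!
# S3814, packages [T2] and [T2G] (Frobenius-type averaging)

`lemT2 : LemT2` from `Cfsg.Agent.Lib.Helper54.frobenius_norm_smul`; `lemT2G` = the conjugation form.
-/

set_option autoImplicit false

namespace Cfsg.Agent.Lib.Helper54.S3814

open Cfsg.Agent.Lib.Helper95.S3814

universe u v

section

variable {K : Type u} {V : Type v} [Group K] [CommGroup V] [MulDistribMulAction K V]

/-- the two-sided setwise stabilizer of a subgroup `U` of `V`. -/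
def stabU (K : Type u) {V : Type v} [Group K] [CommGroup V] [MulDistribMulAction K V]
    (U : Subgroup V) : Subgroup K where
  carrier := {k | (∀ v ∈ U, k • v ∈ U) ∧ (∀ v ∈ U, k⁻¹ • v ∈ U)}
  one_mem' := ⟨fun v hv => by simpa using hv, fun v hv => by simpa using hv⟩
  mul_mem' := by
    rintro a b ⟨ha1, ha2⟩ ⟨hb1, hb2⟩
    refine ⟨fun v hv => ?_, fun v hv => ?_⟩
    · rw [mul_smul]; exact ha1 _ (hb1 v hv)
    · rw [mul_inv_rev, mul_smul]; exact hb2 _ (ha2 v hv)
  inv_mem' := by
    rintro a ⟨ha1, ha2⟩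
    exact ⟨ha2, fun v hv => by simpa using ha1 v hv⟩

instance stabAct (U : Subgroup V) : MulDistribMulAction ↥(stabU K U) ↥U where
  smul k w := ⟨(k : K) • (w : V), k.2.1 w w.2⟩
  one_smul w := Subtype.ext (one_smul K (w : V))
  mul_smul a b w := Subtype.ext (mul_smul (a : K) (b : K) (w : V))
  smul_mul k a b := Subtype.ext (smul_mul' (k : K) (a : V) (b : V))
  smul_one k := Subtype.ext (smul_one (k : K))

theorem stabAct_coe (U : Subgroup V) (k : ↥(stabU K U)) (w : ↥U) :
    ((k • w : ↥U) : V) = (k : K) • (w : V) := rfl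

end

/-- **[T2]**. -/
theorem lemT2 : LemT2.{u, v} := by
  intro K V _ _ _ _ _ N x U hxN hfix hcop hNU hxU hU hC
  classical
  by_contra hcon
  push Not at hcon
  have hreg : ∀ v ∈ U, x • v = v → v = 1 := by
    intro v hv hxv
    by_contra hv1
    exact hcon v hv hv1 hxv
  have hxpow : ∀ i : ℕ, ∀ v ∈ U, x ^ i • v ∈ U := by
    intro i
    induction i with
    | zero => intro v hv; simpa using hv
    | succ i ih => intro v hv; rw [pow_succ, mul_smul]; exact ih _ (hxU v hv)
  obtain ⟨m, hm⟩ : ∃ m, m = orderOf x := ⟨_, rfl⟩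
  have hm0 : 0 < m := hm ▸ orderOf_pos x
  have hxm : x ^ m = 1 := hm ▸ pow_orderOf_eq_one x
  have hxinv : ∀ v ∈ U, x⁻¹ • v ∈ U := by
    intro v hv
    have h1 : x ^ (m - 1) * x = 1 := by rw [← pow_succ, Nat.sub_add_cancel hm0, hxm]
    have h2 : x⁻¹ = x ^ (m - 1) := (eq_inv_of_mul_eq_one_left h1).symm ▸ rfl
    rw [h2]; exact hxpow _ v hv
  have hxS : x ∈ stabU K U := ⟨hxU, hxinv⟩
  have hNS : N ≤ stabU K U := fun n hn => ⟨hNU n hn, hNU n⁻¹ (N.inv_mem hn)⟩
  have hxiN : ∀ i : ℕ, ∀ n ∈ N, x ^ i * n * (x ^ i)⁻¹ ∈ N := by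
    intro i
    induction i with
    | zero => intro n hn; simpa using hn
    | succ i ih =>
      intro n hn
      have h1 := hxN _ (ih n hn)
      have e : x ^ (i + 1) * n * (x ^ (i + 1))⁻¹ = x * (x ^ i * n * (x ^ i)⁻¹) * x⁻¹ := by
        rw [pow_succ']; group
      rw [e]; exact h1
  let xs : ↥(stabU K U) := ⟨x, hxS⟩
  have hxs : ∀ i : ℕ, ((xs ^ i : ↥(stabU K U)) : K) = x ^ i := fun i => by simp [xs]
  let R : Subgroup ↥(stabU K U) := N.subgroupOf (stabU K U)
  have hRmem : ∀ r : ↥(stabU K U), r ∈ R ↔ (r : K) ∈ N := fun r => Subgroup.mem_subgroupOf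
  have hR : ∀ r ∈ R, ∀ i : ℕ, xs ^ i * r * (xs ^ i)⁻¹ ∈ R := by
    intro r hr i
    rw [hRmem] at hr ⊢
    have := hxiN i _ hr
    simpa [hxs] using this
  have hfix' : ∀ i, 0 < i → i < m → ∀ r ∈ R, r * xs ^ i = xs ^ i * r → r = 1 := by
    intro i hi0 him r hr hcomm
    rw [hRmem] at hr
    have h1 : x ^ i ≠ 1 := pow_ne_one_of_lt_orderOf hi0.ne' (hm ▸ him)
    have h2 : x ^ i * (r : K) = (r : K) * x ^ i := by
      have := congrArg Subtype.val hcomm
      simp only [Subgroup.coe_mul, hxs] at this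
      exact this.symm
    exact Subtype.ext (hfix _ hr i h1 h2)
  have hnorm : ∀ w : ↥U, ∏ i ∈ Finset.range m, xs ^ i • w = 1 := by
    intro w
    have hfixed : xs • (∏ i ∈ Finset.range m, xs ^ i • w) = ∏ i ∈ Finset.range m, xs ^ i • w := by
      rw [Finset.smul_prod']
      have h1 : ∀ i, xs • xs ^ i • w = xs ^ (i + 1) • w := fun i => by rw [pow_succ', mul_smul]
      simp only [h1]
      have h2 := Finset.prod_range_succ (fun i => xs ^ i • w) m
      have h3 := Finset.prod_range_succ' (fun i => xs ^ i • w) m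
      have h4 : xs ^ m • w = xs ^ 0 • w := by
        have : xs ^ m = 1 := Subtype.ext (by rw [hxs]; simpa using hxm)
        rw [this, pow_zero]
      rw [h2, h4] at h3
      exact (mul_right_cancel h3).symm
    have h5 : x • ((∏ i ∈ Finset.range m, xs ^ i • w : ↥U) : V)
        = ((∏ i ∈ Finset.range m, xs ^ i • w : ↥U) : V) := by
      have := congrArg Subtype.val hfixed
      rwa [stabAct_coe] at this
    exact Subtype.ext (hreg _ (∏ i ∈ Finset.range m, xs ^ i • w : ↥U).2 h5)
  have hRfin : Finite ↥R := inferInstance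
  have key := Cfsg.Agent.Lib.Helper54.frobenius_norm_smul (H := ↥(stabU K U)) (W := ↥U) R xs m hm0
    hR hfix' hnorm
  obtain ⟨v, hvU, hv1⟩ := hU
  have hcardR : Nat.card ↥R = Nat.card ↥N :=
    Nat.card_congr (Subgroup.subgroupOfEquivOfLe hNS).toEquiv
  have h3 : v ^ Nat.card ↥R = 1 := by
    apply hC _ (U.pow_mem hvU _)
    intro n hn
    have h4 := key ⟨v, hvU⟩ ⟨n, hNS hn⟩ ((hRmem _).mpr hn)
    have h5 := congrArg Subtype.val h4
    rw [stabAct_coe] at h5
    simpa using h5
  have h4 : orderOf v ∣ Nat.card ↥N := by rw [← hcardR]; exact orderOf_dvd_of_pow_eq_one h3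
  have h5 : orderOf v ∣ Nat.card ↥U := by
    have := orderOf_dvd_natCard (⟨v, hvU⟩ : ↥U)
    rwa [Subgroup.orderOf_mk] at this
  have h6 : orderOf v = 1 := Nat.eq_one_of_dvd_coprimes hcop h4 h5
  exact hv1 (orderOf_eq_one_iff.mp h6)

/-- **[T2G]** (conjugation form). -/
theorem lemT2G (h : LemT2.{u, u}) : LemT2G.{u} := by
  intro G _ _ N W x hxN hfix hcop hab hNW hxW hW hC
  classical
  let instC : CommGroup ↥W :=
    { (inferInstance : Group ↥W) with
      mul_comm := fun a b => Subtype.ext (hab a a.2 b b.2) }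
  let instA : MulDistribMulAction ↥(Subgroup.normalizer (W : Set G)) ↥W :=
    { smul := fun k w => ⟨(k : G) * (w : G) * (k : G)⁻¹,
        (Subgroup.mem_normalizer_iff.mp k.2 (w : G)).mp w.2⟩
      one_smul := fun w => Subtype.ext
        (show ((1 : ↥(Subgroup.normalizer (W : Set G))) : G) * (w : G)
            * ((1 : ↥(Subgroup.normalizer (W : Set G))) : G)⁻¹ = (w : G) by simp)
      mul_smul := fun a b w => Subtype.ext
        (show ((a * b : ↥(Subgroup.normalizer (W : Set G))) : G) * (w : G)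
            * ((a * b : ↥(Subgroup.normalizer (W : Set G))) : G)⁻¹
            = (a : G) * ((b : G) * (w : G) * (b : G)⁻¹) * (a : G)⁻¹ by
          rw [Subgroup.coe_mul]; group)
      smul_mul := fun k a b => Subtype.ext
        (show (k : G) * ((a : G) * (b : G)) * (k : G)⁻¹
            = ((k : G) * (a : G) * (k : G)⁻¹) * ((k : G) * (b : G) * (k : G)⁻¹) by group)
      smul_one := fun k => Subtype.ext
        (show (k : G) * (1 : G) * (k : G)⁻¹ = 1 by group) }
  have hsmul : ∀ (k : ↥(Subgroup.normalizer (W : Set G))) (w : ↥W),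
      ((k • w : ↥W) : G) = (k : G) * (w : G) * (k : G)⁻¹ := fun k w => rfl
  -- `N` and `x` normalize `W`
  have hNn : N ≤ Subgroup.normalizer (W : Set G) := by
    intro n hn
    rw [Subgroup.mem_normalizer_iff]
    intro w
    constructor
    · exact hNW n hn w
    · intro hw
      have := hNW n⁻¹ (N.inv_mem hn) _ hw
      simpa [mul_assoc] using this
  have hxn : x ∈ Subgroup.normalizer (W : Set G) := by
    rw [Subgroup.mem_normalizer_iff]
    intro w
    constructor
    · exact hxW w
    · intro hw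
      -- conjugation by `x` is a bijection of the finite set `W`
      let f : ↥W → ↥W := fun t => ⟨x * t * x⁻¹, hxW t t.2⟩
      have hinj : Function.Injective f := by
        intro a b hab'
        have h1 : x * (a : G) * x⁻¹ = x * (b : G) * x⁻¹ := congrArg Subtype.val hab'
        have h2 : (a : G) = b := by
          have := congrArg (fun y => x⁻¹ * y * x) h1
          simpa [mul_assoc] using this
        exact Subtype.ext h2
      obtain ⟨t, ht⟩ := (Finite.injective_iff_surjective.mp hinj) ⟨_, hw⟩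
      have ht' : x * (t : G) * x⁻¹ = x * w * x⁻¹ := congrArg Subtype.val ht
      have h2 : (t : G) = w := by
        have := congrArg (fun y => x⁻¹ * y * x) ht'
        simpa [mul_assoc] using this
      rw [← h2]; exact t.2
  obtain ⟨w₀, hw₀, hw₀1⟩ : ∃ w ∈ W, w ≠ 1 := by
    by_contra hcon
    push Not at hcon
    exact hW ((Subgroup.eq_bot_iff_forall W).mpr hcon)
  have hres := h ↥(Subgroup.normalizer (W : Set G)) ↥W
    (N.subgroupOf (Subgroup.normalizer (W : Set G))) ⟨x, hxn⟩ ⊤
    (by
      intro n hn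
      rw [Subgroup.mem_subgroupOf] at hn ⊢
      simpa using hxN _ hn)
    (by
      intro n hn i hi hcomm
      rw [Subgroup.mem_subgroupOf] at hn
      have h1 : x ^ i ≠ 1 := by
        intro h1
        apply hi
        exact Subtype.ext (by simpa using h1)
      have h2 : x ^ i * (n : G) = (n : G) * x ^ i := by
        have := congrArg Subtype.val hcomm
        simpa using this
      exact Subtype.ext (hfix _ hn i h1 h2))
    (by
      rw [Nat.card_congr (Subgroup.subgroupOfEquivOfLe hNn).toEquiv, Subgroup.card_top]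
      exact hcop)
    (fun _ _ _ _ => Subgroup.mem_top _) (fun _ _ => Subgroup.mem_top _)
    ⟨⟨w₀, hw₀⟩, Subgroup.mem_top _, fun h1 => hw₀1 (congrArg Subtype.val h1)⟩
    (by
      intro v _ hv
      apply Subtype.ext
      apply hC _ v.2
      intro n hn
      have h1 := hv ⟨n, hNn hn⟩ (by rw [Subgroup.mem_subgroupOf]; exact hn)
      have h2 := congrArg Subtype.val h1
      rw [hsmul] at h2
      have h3 : n * (v : G) * n⁻¹ = v := h2
      calc n * (v : G) = n * (v : G) * n⁻¹ * n := by group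
        _ = (v : G) * n := by rw [h3])
  obtain ⟨v, -, hv1, hxv⟩ := hres
  refine ⟨v, v.2, fun h1 => hv1 (Subtype.ext h1), ?_⟩
  have h2 := congrArg Subtype.val hxv
  rw [hsmul] at h2
  have h3 : x * (v : G) * x⁻¹ = v := h2
  calc x * (v : G) = x * (v : G) * x⁻¹ * x := by group
    _ = (v : G) * x := by rw [h3]

end Cfsg.Agent.Lib.Helper54.S3814
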